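import Mathlib
import Cfsg.Agent.SLRegGen.TwoThree

/-!
The fields with two and four elements for the two-generator theorem in `SL 3`.
-/

set_option autoImplicit false

namespace CfsgLib.SLRegGen

open Matrix
open CfsgLib.Classical.Linear

variable {F : Type*} [Field F]

local notation "T[" hij ", " a "]" => Matrix.SpecialLinearGroup.transvection hij a

/-- Model of the field with four elements, with decidable arithmetic. -/
abbrev Four := QuadraticAlgebra (ZMod 2) 1 1

/-- Transport to `F`. -/
def fourHom [CharP F 2] (a : F) (h : a * a = 1 + a) : Four →+* F :=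
  letI := ZMod.algebra F 2
  (QuadraticAlgebra.lift ⟨a, by simp only [one_smul]; exact h⟩).toRingHom

/-- The second generator for `q = 4`. -/
def vFourThree : Matrix.SpecialLinearGroup (Fin 3) Four :=
  ⟨!![1, 0, 0; ⟨0, 1⟩, 1, 0; ⟨0, 1⟩, ⟨0, 1⟩, 1], by decide +kernel⟩

/-- `u = 1 + N` for `q = 4`. -/
def uFour : Matrix.SpecialLinearGroup (Fin 3) Four :=
  ⟨!![1, 1, 0; 0, 1, 1; 0, 0, 1], by decide +kernel⟩

/-- The conjugating element for `q = 4`. -/
def gFour : Matrix.SpecialLinearGroup (Fin 3) Four :=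
  ⟨!![0, 0, 1; 0, ⟨0, 1⟩, 0; ⟨1, 1⟩, ⟨0, 1⟩, 0], by decide +kernel⟩

lemma gFour_mul_uFour : gFour * uFour = vFourThree * gFour := by
  apply Subtype.ext
  decide +kernel

lemma four_word_02 : (uFour * vFourThree * vFourThree * uFour * vFourThree⁻¹ * uFour * vFourThree⁻¹ * uFour * vFourThree⁻¹ * uFour * uFour * vFourThree * uFour⁻¹ * vFourThree⁻¹ : Matrix.SpecialLinearGroup (Fin 3) Four) =
    T[(by decide : (0 : Fin 3) ≠ 2), (⟨0, 1⟩ : Four)] := by
  apply Subtype.ext
  decide +kernel

lemma four_word_02one : (uFour * uFour : Matrix.SpecialLinearGroup (Fin 3) Four) =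
    T[(by decide : (0 : Fin 3) ≠ 2), (1 : Four)] := by
  apply Subtype.ext
  decide +kernel

lemma four_word_20one : (uFour * vFourThree * uFour⁻¹ * vFourThree⁻¹ * uFour⁻¹ * vFourThree * uFour : Matrix.SpecialLinearGroup (Fin 3) Four) =
    T[(by decide : (2 : Fin 3) ≠ 0), (1 : Four)] := by
  apply Subtype.ext
  decide +kernel

lemma four_word_20 : (uFour * vFourThree * uFour⁻¹ * vFourThree⁻¹ * uFour⁻¹ * vFourThree * uFour * vFourThree * vFourThree : Matrix.SpecialLinearGroup (Fin 3) Four) =
    T[(by decide : (2 : Fin 3) ≠ 0), (⟨0, 1⟩ : Four)] := by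
  apply Subtype.ext
  decide +kernel

lemma four_word_01one : (vFourThree * uFour * uFour * vFourThree⁻¹ * uFour * vFourThree * vFourThree * uFour⁻¹ * vFourThree * uFour * uFour * vFourThree⁻¹ : Matrix.SpecialLinearGroup (Fin 3) Four) =
    T[(by decide : (0 : Fin 3) ≠ 1), (1 : Four)] := by
  apply Subtype.ext
  decide +kernel

/-- Image in `SL₃(F)`. -/
def fourSL [CharP F 2] (a : F) (h : a * a = 1 + a) :
    Matrix.SpecialLinearGroup (Fin 3) Four →* Matrix.SpecialLinearGroup (Fin 3) F :=
  Matrix.SpecialLinearGroup.map (fourHom a h)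

lemma fourHom_mk [CharP F 2] (a : F) (h : a * a = 1 + a) : fourHom a h (⟨0, 1⟩ : Four) = a := by
  letI := ZMod.algebra F 2
  show (0 : ZMod 2) • (1 : F) + (1 : ZMod 2) • a = a
  simp

lemma fourSL_transvection [CharP F 2] (a : F) (h : a * a = 1 + a) {i j : Fin 3} (hij : i ≠ j)
    (c : Four) : fourSL a h T[hij, c] = T[hij, fourHom a h c] := by
  apply Subtype.ext
  ext x y
  rw [transvection_apply]
  simp only [fourSL, Matrix.SpecialLinearGroup.map_apply_coe, RingHom.mapMatrix_apply,
    Matrix.map_apply, transvection_apply, map_add]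
  split_ifs <;> simp [Matrix.one_apply, apply_ite (fourHom a h)]

/-- Generation for the field with four elements. -/
theorem eq_top_four [Fintype F] [CharP F 2] (a : F) (h : a * a = 1 + a)
    (hF : ∀ c : F, c = 0 ∨ c = 1 ∨ c = a ∨ c = 1 + a)
    {H : Subgroup (Matrix.SpecialLinearGroup (Fin 3) F)}
    (hu : fourSL a h uFour ∈ H) (hv : fourSL a h vFourThree ∈ H) : H = ⊤ := by
  set K := H.comap (fourSL a h) with hK
  have ku : uFour ∈ K := hu
  have kv : vFourThree ∈ K := hv
  have kU := K.inv_mem ku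
  have kV := K.inv_mem kv
  have full : ∀ (i j : Fin 3) (hij : i ≠ j),
      T[hij, (1 : Four)] ∈ K → T[hij, (⟨0, 1⟩ : Four)] ∈ K → rootFull (l := 2) H i j := by
    intro i j hij h1 h2 c hn
    have e1 : T[hn, (1 : F)] ∈ H := by
      have : fourSL a h T[hij, (1 : Four)] ∈ H := h1
      rwa [fourSL_transvection, map_one] at this
    have e2 : T[hn, a] ∈ H := by
      have : fourSL a h T[hij, (⟨0, 1⟩ : Four)] ∈ H := h2
      rwa [fourSL_transvection, fourHom_mk] at this
    rcases hF c with rfl | rfl | rfl | rfl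
    · rw [Matrix.SpecialLinearGroup.transvection_coeff_zero]
      exact H.one_mem
    · exact e1
    · exact e2
    · rw [Matrix.SpecialLinearGroup.transvection_add]
      exact H.mul_mem e1 e2
  have f02 : rootFull (l := 2) H 0 2 := by
    refine full 0 2 (by decide) ?_ ?_
    · rw [← four_word_02one]; exact K.mul_mem ku ku
    · rw [← four_word_02]; exact (K.mul_mem (K.mul_mem (K.mul_mem (K.mul_mem (K.mul_mem (K.mul_mem (K.mul_mem (K.mul_mem (K.mul_mem (K.mul_mem (K.mul_mem (K.mul_mem (K.mul_mem ku kv) kv) ku) kV) ku) kV) ku) kV) ku) ku) kv) kU) kV)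
  have f20 : rootFull (l := 2) H 2 0 := by
    refine full 2 0 (by decide) ?_ ?_
    · rw [← four_word_20one]; exact (K.mul_mem (K.mul_mem (K.mul_mem (K.mul_mem (K.mul_mem (K.mul_mem ku kv) kU) kV) kU) kv) ku)
    · rw [← four_word_20]; exact (K.mul_mem (K.mul_mem (K.mul_mem (K.mul_mem (K.mul_mem (K.mul_mem (K.mul_mem (K.mul_mem ku kv) kU) kV) kU) kv) ku) kv) kv)
  have h01 : (0 : Fin 3) ≠ 1 := by decide
  have h02 : (0 : Fin 3) ≠ 2 := by decide
  have h12 : (1 : Fin 3) ≠ 2 := by decide
  have o01 : T[h01, (1 : F)] ∈ H := by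
    have h1 : T[h01, (1 : Four)] ∈ K := by
      rw [← four_word_01one]; exact (K.mul_mem (K.mul_mem (K.mul_mem (K.mul_mem (K.mul_mem (K.mul_mem (K.mul_mem (K.mul_mem (K.mul_mem (K.mul_mem (K.mul_mem kv ku) ku) kV) ku) kv) kv) kU) kv) ku) ku) kV)
    have : fourSL a h T[h01, (1 : Four)] ∈ H := h1
    rwa [fourSL_transvection, map_one] at this
  have o12 : T[h12, (1 : F)] ∈ H := by
    have h1 : T[h12, (1 : Four)] * T[h01, (1 : Four)] = uFour := by
      apply Subtype.ext
      simp only [Matrix.SpecialLinearGroup.coe_mul, Matrix.SpecialLinearGroup.transvection_coe]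
      decide +kernel
    have : fourSL a h (T[h12, (1 : Four)] * T[h01, (1 : Four)]) ∈ H := by rw [h1]; exact hu
    rw [map_mul, fourSL_transvection, fourSL_transvection, map_one] at this
    simpa using H.mul_mem this (H.inv_mem o01)
  have f21 : rootFull (l := 2) H 2 1 := f20.mul_right h02.symm h01 (fun _ => o01) one_ne_zero
  have f01 : rootFull (l := 2) H 0 1 := f02.mul_right h02 h12.symm (f21 1) one_ne_zero
  have f10 : rootFull (l := 2) H 1 0 := rootFull.mul_left h12 h02.symm (fun _ => o12) one_ne_zero f20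
  have f12 : rootFull (l := 2) H 1 2 := f10.mul_right h01.symm h02 (f02 1) one_ne_zero
  apply eq_top_of_transvection_mem
  intro i j hij c
  fin_cases i <;> fin_cases j
  · exact absurd rfl hij
  · exact f01 c hij
  · exact f02 c hij
  · exact f10 c hij
  · exact absurd rfl hij
  · exact f12 c hij
  · exact f20 c hij
  · exact f21 c hij
  · exact absurd rfl hij

end CfsgLib.SLRegGen
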